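import Mathlib

set_option autoImplicit false

/-! # S4407: the two four-groups of the dihedral group of order 8 -/

namespace Cfsg.Agent.Lib.Helper35.D8M

open DihedralGroup

/-- the four-group `{1, r², s r^j, s r^(j+2)}` of the dihedral group of order 8 -/
def E (j : ZMod 4) : Subgroup (DihedralGroup 4) where
  carrier := {x | x = 1 ∨ x = r 2 ∨ x = sr j ∨ x = sr (j + 2)}
  mul_mem' := by
    intro a b
    simp only [Set.mem_setOf_eq]
    revert j a b
    decide
  one_mem' := Or.inl rfl
  inv_mem' := by
    intro a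
    simp only [Set.mem_setOf_eq]
    revert j a
    decide

theorem mem_E {j : ZMod 4} {x : DihedralGroup 4} :
    x ∈ E j ↔ x = 1 ∨ x = r 2 ∨ x = sr j ∨ x = sr (j + 2) := Iff.rfl

end Cfsg.Agent.Lib.Helper35.D8M
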