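import Mathlib

set_option autoImplicit false

/-! # S4407, piece P4: the linear algebra core -/

namespace Cfsg.Agent.Lib.Helper35.D8M

/-- an involution of a non-zero `F₂`-space has a non-zero fixed vector -/
theorem inv_fix {M : Type*} [AddCommGroup M] [Module (ZMod 2) M] (τ : M →ₗ[ZMod 2] M)
    (hτ : ∀ m, τ (τ m) = m) (P : M → Prop) (hadd : ∀ x y, P x → P y → P (x + y))
    (hP : ∀ x, P x → P (τ x)) (w₀ : M) (hw₀ : P w₀) (h0 : w₀ ≠ 0) :
    ∃ w, P w ∧ w ≠ 0 ∧ τ w = w := by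
  by_cases h : w₀ + τ w₀ = 0
  · refine ⟨w₀, hw₀, h0, ?_⟩
    have h1 : τ w₀ = -w₀ := eq_neg_of_add_eq_zero_right h
    rw [h1, ZModModule.neg_eq_self]
  · refine ⟨w₀ + τ w₀, hadd _ _ hw₀ (hP _ hw₀), h, ?_⟩
    rw [map_add, hτ, add_comm]

theorem eq_of_add_eq_zero' {M : Type*} [AddCommGroup M] [Module (ZMod 2) M] {x y : M}
    (h : x + y = 0) : x = y := by
  have h1 : x = -y := eq_neg_of_add_eq_zero_left h
  rw [h1, ZModModule.neg_eq_self]

/-- P4 -/
theorem core {M : Type*} [AddCommGroup M] [Module (ZMod 2) M] [Finite M]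
    (α β R σ : M →ₗ[ZMod 2] M)
    (hα3 : ∀ m, α (α (α m)) = m) (hβ3 : ∀ m, β (β (β m)) = m) (hαβ : ∀ m, α (β m) = β (α m))
    (hσ2 : ∀ m, σ (σ m) = m) (hR4 : ∀ m, R (R (R (R m))) = m) (hσR : ∀ m, R (σ (R m)) = σ m)
    (hRα : ∀ m, R (α m) = β (R m)) (hRβ : ∀ m, α (R (β m)) = R m)
    (hσα : ∀ m, σ (α m) = α (σ m)) (hσβ : ∀ m, β (σ (β m)) = σ m)
    (hirr : ∀ N : Submodule (ZMod 2) M, (∀ m ∈ N, α m ∈ N) → (∀ m ∈ N, β m ∈ N) →
      (∀ m ∈ N, R m ∈ N) → (∀ m ∈ N, σ m ∈ N) → N = ⊥ ∨ N = ⊤)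
    (hfix : ∃ m, m ≠ 0 ∧ α m = m) (hdisj : ∀ m, α m = m → β m = m → m = 0) :
    Nat.card M = 16 ∧ Nat.card {m : M // R (R m) = m ∧ σ (R m) = m} = 2 ∧
      Nat.card {m : M // R (R m) = m ∧ σ m = m} ≠ 2 := by
  have hself : ∀ x : M, x + x = 0 := ZModModule.add_self
  have h01 : ∀ a : ZMod 2, a = 0 ∨ a = 1 := by decide
  have hσZ : ∀ m, σ (R (R m)) = R (R (σ m)) := by
    intro m
    have h1 : R (σ (R (R m))) = σ (R m) := hσR (R m)
    have h2 : R (R (σ (R (R m)))) = σ m := by rw [h1, hσR]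
    calc σ (R (R m)) = R (R (R (R (σ (R (R m)))))) := (hR4 _).symm
      _ = R (R (σ m)) := by rw [h2]
  have hσR' : ∀ u, σ (R u) = R (R (R (σ u))) := by
    intro u
    calc σ (R u) = R (R (R (R (σ (R u))))) := (hR4 _).symm
      _ = R (R (R (σ u))) := by rw [hσR]
  have hσβ' : ∀ m, σ (β m) = β (β (σ m)) := by
    intro m
    calc σ (β m) = β (β (β (σ (β m)))) := (hβ3 _).symm
      _ = β (β (σ m)) := by rw [hσβ]
  have hRinj : ∀ m, R m = 0 → m = 0 := by
    intro m hm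
    rw [← hR4 m, hm, map_zero, map_zero, map_zero]
  -- `R` swaps the two fixed spaces
  have hR12 : ∀ m, α m = m → β (R m) = R m := fun m hm => by rw [← hRα, hm]
  have hR21 : ∀ m, β m = m → α (R m) = R m := fun m hm => by
    have := hRβ m
    rwa [hm] at this
  have hZ1 : ∀ m, α m = m → α (R (R m)) = R (R m) := fun m hm => hR21 _ (hR12 _ hm)
  have hσ1 : ∀ m, α m = m → α (σ m) = σ m := fun m hm => by rw [← hσα, hm]
  have hβ1 : ∀ m, α m = m → α (β m) = β m := fun m hm => by rw [hαβ, hm]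
  have hsplit : ∀ y y', α y = y → α y' = y' → y + R y' = 0 → y = 0 ∧ y' = 0 := by
    intro y y' hy hy' h
    have h1 : y = R y' := eq_of_add_eq_zero' h
    have h2 : y = 0 := hdisj y hy (by rw [h1]; exact hR12 _ hy')
    refine ⟨h2, hRinj _ ?_⟩
    rw [← h1, h2]
  -- the induced submodule
  have hN : ∀ U : Submodule (ZMod 2) M, (∀ u ∈ U, α u = u) → (∀ u ∈ U, β u ∈ U) →
      (∀ u ∈ U, σ u ∈ U) → (∀ u ∈ U, R (R u) ∈ U) →
      U ⊔ U.map R = ⊥ ∨ U ⊔ U.map R = ⊤ := by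
    intro U h1 h2 h3 h4
    apply hirr
    · intro m hm
      obtain ⟨u, hu, w, hw, rfl⟩ := Submodule.mem_sup.1 hm
      obtain ⟨u', hu', rfl⟩ := hw
      rw [map_add, h1 u hu]
      refine Submodule.add_mem _ (Submodule.mem_sup_left hu) (Submodule.mem_sup_right ?_)
      refine ⟨β (β u'), h2 _ (h2 _ hu'), ?_⟩
      have := hRβ (β (β u'))
      rw [hβ3] at this
      exact this.symm
    · intro m hm
      obtain ⟨u, hu, w, hw, rfl⟩ := Submodule.mem_sup.1 hm
      obtain ⟨u', hu', rfl⟩ := hw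
      rw [map_add]
      refine Submodule.add_mem _ (Submodule.mem_sup_left (h2 u hu)) (Submodule.mem_sup_right ?_)
      refine ⟨u', hu', ?_⟩
      exact (hR12 u' (h1 u' hu')).symm
    · intro m hm
      obtain ⟨u, hu, w, hw, rfl⟩ := Submodule.mem_sup.1 hm
      obtain ⟨u', hu', rfl⟩ := hw
      rw [map_add, add_comm]
      exact Submodule.add_mem _ (Submodule.mem_sup_left (h4 u' hu'))
        (Submodule.mem_sup_right ⟨u, hu, rfl⟩)
    · intro m hm
      obtain ⟨u, hu, w, hw, rfl⟩ := Submodule.mem_sup.1 hm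
      obtain ⟨u', hu', rfl⟩ := hw
      rw [map_add]
      refine Submodule.add_mem _ (Submodule.mem_sup_left (h3 u hu)) (Submodule.mem_sup_right ?_)
      exact ⟨R (R (σ u')), h4 _ (h3 _ hu'), (hσR' u').symm⟩
  have hirr1 : ∀ U : Submodule (ZMod 2) M, (∀ u ∈ U, α u = u) → (∀ u ∈ U, β u ∈ U) →
      (∀ u ∈ U, σ u ∈ U) → (∀ u ∈ U, R (R u) ∈ U) → U ≠ ⊥ → ∀ m, α m = m → m ∈ U := by
    intro U h1 h2 h3 h4 hU m hm
    rcases hN U h1 h2 h3 h4 with h | h
    · exact absurd (le_bot_iff.1 (h ▸ le_sup_left)) hU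
    · have hmem : m ∈ U ⊔ U.map R := by rw [h]; exact Submodule.mem_top
      obtain ⟨u, hu, w, hw, rfl⟩ := Submodule.mem_sup.1 hmem
      obtain ⟨u', hu', rfl⟩ := hw
      have h5 : α (R u') = R u' := by
        rw [map_add, h1 u hu] at hm
        exact add_left_cancel hm
      have h6 : R u' = 0 := hdisj _ h5 (hR12 _ (h1 u' hu'))
      rw [h6, add_zero]
      exact hu
  obtain ⟨w₀, hw₀0, hw₀⟩ := hfix
  -- M4
  have h4 : ∀ m, α m = m → σ (R (R m)) = m := by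
    obtain ⟨U, hU⟩ : ∃ U : Submodule (ZMod 2) M, ∀ x, x ∈ U ↔ α x = x ∧ σ (R (R x)) = x :=
      ⟨LinearMap.eqLocus α LinearMap.id ⊓ LinearMap.eqLocus (σ ∘ₗ R ∘ₗ R) LinearMap.id,
        fun x => Iff.rfl⟩
    have hne : U ≠ ⊥ := by
      obtain ⟨w, hw1, hw0, hw2⟩ := inv_fix (σ ∘ₗ R ∘ₗ R)
        (fun m => by
          simp only [LinearMap.comp_apply]
          rw [← hσZ, hσ2, hR4])
        (fun x => α x = x) (fun x y hx hy => by rw [map_add, hx, hy])
        (fun x hx => hσ1 _ (hZ1 _ hx)) w₀ hw₀ hw₀0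
      intro hbot
      have : w ∈ U := (hU w).2 ⟨hw1, hw2⟩
      rw [hbot, Submodule.mem_bot] at this
      exact hw0 this
    intro m hm
    refine ((hU m).1 (hirr1 U (fun u hu => ((hU u).1 hu).1) ?_ ?_ ?_ hne m hm)).2
    · intro u hu
      obtain ⟨e1, e2⟩ := (hU u).1 hu
      refine (hU _).2 ⟨hβ1 _ e1, ?_⟩
      have hRβ' : ∀ m, R (β m) = α (α (R m)) := by
        intro m
        calc R (β m) = α (α (α (R (β m)))) := (hα3 _).symm
          _ = α (α (R m)) := by rw [hRβ]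
      rw [hRβ', hRα, hRα, hσβ', hσβ', e2, hβ3]
    · intro u hu
      obtain ⟨e1, e2⟩ := (hU u).1 hu
      refine (hU _).2 ⟨hσ1 _ e1, ?_⟩
      rw [← hσZ, e2]
    · intro u hu
      obtain ⟨e1, e2⟩ := (hU u).1 hu
      refine (hU _).2 ⟨hZ1 _ e1, ?_⟩
      rw [hR4]
      have := congrArg σ e2
      rw [hσ2] at this
      exact this.symm
  have hZσ : ∀ m, α m = m → R (R m) = σ m := by
    intro m hm
    have := congrArg σ (h4 m hm)
    rwa [hσ2] at this
  -- M5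
  obtain ⟨m₀, hm₀, hm₀0, hσm₀⟩ := inv_fix σ hσ2 (fun x => α x = x)
    (fun x y hx hy => by rw [map_add, hx, hy]) (fun x hx => hσ1 _ hx) w₀ hw₀ hw₀0
  have hm₀' : α m₀ = m₀ := hm₀
  obtain ⟨m₁, hm₁⟩ : ∃ m₁, m₁ = β m₀ := ⟨_, rfl⟩
  have hαm₁ : α m₁ = m₁ := by rw [hm₁]; exact hβ1 _ hm₀'
  have hβm₁ : β m₁ = m₀ + m₁ := by
    have h0 : m₀ + m₁ + β m₁ = 0 := by
      apply hdisj
      · rw [map_add, map_add, hm₀', hαm₁, hβ1 _ hαm₁]
      · rw [map_add, map_add, ← hm₁]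
        have : β (β m₁) = m₀ := by rw [hm₁, hβ3]
        rw [this]
        abel
    exact (eq_of_add_eq_zero' h0).symm
  have hσm₁ : σ m₁ = m₀ + m₁ := by
    rw [hm₁, hσβ', hσm₀, ← hm₁, hβm₁]
  have hm₁0 : m₁ ≠ 0 := by
    intro h
    apply hm₀0
    rw [← hβ3 m₀, ← hm₁, h, map_zero, map_zero]
  have hm₁m₀ : m₁ ≠ m₀ := by
    intro h
    exact hm₀0 (hdisj m₀ hm₀' (by rw [← hm₁, h]))
  have hspan : ∀ m, α m = m → m ∈ Submodule.span (ZMod 2) {m₀, m₁} := by
    have hα' : ∀ u ∈ Submodule.span (ZMod 2) {m₀, m₁}, α u = u := by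
      intro u hu
      obtain ⟨a, b, rfl⟩ := Submodule.mem_span_pair.1 hu
      rw [map_add, map_smul, map_smul, hm₀', hαm₁]
    have hσ' : ∀ u ∈ Submodule.span (ZMod 2) {m₀, m₁}, σ u ∈ Submodule.span (ZMod 2) {m₀, m₁} := by
      intro u hu
      obtain ⟨a, b, rfl⟩ := Submodule.mem_span_pair.1 hu
      rw [map_add, map_smul, map_smul, hσm₀, hσm₁]
      exact Submodule.mem_span_pair.2 ⟨a + b, b, by module⟩
    apply hirr1 _ hα' _ hσ'
    · intro u hu
      rw [hZσ u (hα' u hu)]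
      exact hσ' u hu
    · intro hbot
      have : m₀ ∈ Submodule.span (ZMod 2) {m₀, m₁} := Submodule.subset_span (by simp)
      rw [hbot, Submodule.mem_bot] at this
      exact hm₀0 this
    · intro u hu
      obtain ⟨a, b, rfl⟩ := Submodule.mem_span_pair.1 hu
      rw [map_add, map_smul, map_smul, ← hm₁, hβm₁]
      exact Submodule.mem_span_pair.2 ⟨b, a + b, by module⟩
  have hfour : ∀ m, α m = m → m = 0 ∨ m = m₀ ∨ m = m₁ ∨ m = m₀ + m₁ := by
    intro m hm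
    obtain ⟨a, b, rfl⟩ := Submodule.mem_span_pair.1 (hspan m hm)
    rcases h01 a with rfl | rfl <;> rcases h01 b with rfl | rfl <;> simp
  have hdec : ∀ x : M, ∃ y y', α y = y ∧ α y' = y' ∧ x = y + R y' := by
    obtain ⟨U, hU⟩ : ∃ U : Submodule (ZMod 2) M, ∀ x, x ∈ U ↔ α x = x :=
      ⟨LinearMap.eqLocus α LinearMap.id, fun x => Iff.rfl⟩
    rcases hN U (fun u hu => (hU u).1 hu) (fun u hu => (hU _).2 (hβ1 _ ((hU u).1 hu)))
      (fun u hu => (hU _).2 (hσ1 _ ((hU u).1 hu))) (fun u hu => (hU _).2 (hZ1 _ ((hU u).1 hu)))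
      with h | h
    · exfalso
      have : m₀ ∈ U ⊔ U.map R := Submodule.mem_sup_left ((hU _).2 hm₀')
      rw [h, Submodule.mem_bot] at this
      exact hm₀0 this
    · intro x
      have hx : x ∈ U ⊔ U.map R := by rw [h]; exact Submodule.mem_top
      obtain ⟨u, hu, w, hw, rfl⟩ := Submodule.mem_sup.1 hx
      obtain ⟨u', hu', rfl⟩ := hw
      exact ⟨u, u', (hU _).1 hu, (hU _).1 hu', rfl⟩
  -- the order of `M`
  obtain ⟨g, hg⟩ : ∃ g : ZMod 2 × ZMod 2 →ₗ[ZMod 2] M, ∀ c, g c = c.1 • m₀ + c.2 • m₁ :=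
    ⟨(LinearMap.fst (ZMod 2) (ZMod 2) (ZMod 2)).smulRight m₀ +
      (LinearMap.snd (ZMod 2) (ZMod 2) (ZMod 2)).smulRight m₁, fun c => rfl⟩
  have hgα : ∀ c, α (g c) = g c := fun c => by
    rw [hg, map_add, map_smul, map_smul, hm₀', hαm₁]
  have hg0 : ∀ c, g c = 0 → c = 0 := by
    rintro ⟨a, b⟩ h
    rw [hg] at h
    rcases h01 a with rfl | rfl <;> rcases h01 b with rfl | rfl
    · rfl
    · exact absurd (by simpa using h) hm₁0
    · exact absurd (by simpa using h) hm₀0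
    · have h' : m₀ + m₁ = 0 := by simpa using h
      exact absurd (eq_of_add_eq_zero' h').symm hm₁m₀
  have hFinj : Function.Injective (g.coprod (R ∘ₗ g)) := by
    rw [injective_iff_map_eq_zero]
    rintro ⟨c, e⟩ h
    have h' : g c + R (g e) = 0 := h
    obtain ⟨h1, h2⟩ := hsplit _ _ (hgα c) (hgα e) h'
    rw [hg0 c h1, hg0 e h2]
    rfl
  have hFsurj : Function.Surjective (g.coprod (R ∘ₗ g)) := by
    intro x
    obtain ⟨y, y', hy, hy', rfl⟩ := hdec x
    obtain ⟨a, b, rfl⟩ := Submodule.mem_span_pair.1 (hspan y hy)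
    obtain ⟨a', b', rfl⟩ := Submodule.mem_span_pair.1 (hspan y' hy')
    refine ⟨((a, b), (a', b')), ?_⟩
    rw [LinearMap.coprod_apply, LinearMap.comp_apply, hg, hg]
  have h16 : Nat.card M = 16 := by
    rw [← Nat.card_congr (Equiv.ofBijective _ ⟨hFinj, hFsurj⟩)]
    simp
  -- more relations
  have hσR1 : ∀ y, α y = y → σ (R y) = R y := by
    intro y hy
    rw [hσR', hZσ _ (hσ1 _ hy), hσ2]
  have hZm₀ : R (R m₀) = m₀ := by rw [hZσ _ hm₀', hσm₀]
  refine ⟨h16, ?_, ?_⟩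
  · rw [Nat.card_eq_two_iff]
    refine ⟨⟨0, by simp⟩, ⟨m₀ + R m₀, ?_, ?_⟩, ?_, ?_⟩
    · rw [map_add, map_add, hZm₀]
    · rw [map_add, map_add, hσR1 _ hm₀', h4 _ hm₀', add_comm]
    · intro h
      have h' : (0 : M) = m₀ + R m₀ := congrArg Subtype.val h
      exact hm₀0 (hsplit _ _ hm₀' hm₀' h'.symm).1
    · rw [Set.eq_univ_iff_forall]
      rintro ⟨x, hx1, hx2⟩
      obtain ⟨y, y', hy, hy', rfl⟩ := hdec x
      have e1 : y' = y := by
        rw [map_add, map_add, hσR1 _ hy, h4 _ hy'] at hx2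
        have h0 : (y' + y) + R (y' + y) = 0 := by
          rw [map_add]
          calc y' + y + (R y' + R y) = (R y + y') + (y + R y') := by abel
            _ = (y + R y') + (y + R y') := by rw [hx2]
            _ = 0 := hself _
        have := (hsplit _ _ (by rw [map_add, hy, hy']) (by rw [map_add, hy, hy']) h0).1
        exact eq_of_add_eq_zero' this
      subst e1
      have e2 : σ y' = y' := by
        rw [map_add, map_add, hZσ _ hy] at hx1
        have h0 : (σ y' + y') + R (σ y' + y') = 0 := by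
          rw [map_add]
          calc σ y' + y' + (R (σ y') + R y') = (σ y' + R (σ y')) + (y' + R y') := by abel
            _ = (y' + R y') + (y' + R y') := by rw [hx1]
            _ = 0 := hself _
        have := (hsplit _ _ (by rw [map_add, hσ1 _ hy, hy]) (by rw [map_add, hσ1 _ hy, hy]) h0).1
        exact eq_of_add_eq_zero' this
      rcases hfour y' hy with rfl | rfl | rfl | rfl
      · left
        apply Subtype.ext
        simp
      · right
        rfl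
      · exfalso
        rw [hσm₁] at e2
        exact hm₀0 (by simpa using e2)
      · exfalso
        rw [map_add, hσm₀, hσm₁] at e2
        exact hm₀0 (by simpa using e2)
  · intro h2
    rw [Nat.card_eq_two_iff] at h2
    obtain ⟨x, y, -, huniv⟩ := h2
    have hRm₀ : R m₀ ≠ 0 := fun h => hm₀0 (hRinj _ h)
    have hne : m₀ ≠ R m₀ := by
      intro h
      have h0 : m₀ + R m₀ = 0 := by rw [← h, hself]
      exact hm₀0 (hsplit _ _ hm₀' hm₀' h0).1
    have k0 : (⟨0, by simp⟩ : {m : M // R (R m) = m ∧ σ m = m}) ∈ ({x, y} : Set _) := by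
      rw [huniv]; exact Set.mem_univ _
    have k1 : (⟨m₀, hZm₀, hσm₀⟩ : {m : M // R (R m) = m ∧ σ m = m}) ∈ ({x, y} : Set _) := by
      rw [huniv]; exact Set.mem_univ _
    have k2 : (⟨R m₀, by rw [hZm₀], hσR1 _ hm₀'⟩ : {m : M // R (R m) = m ∧ σ m = m}) ∈
        ({x, y} : Set _) := by
      rw [huniv]; exact Set.mem_univ _
    have c01 : (⟨0, by simp⟩ : {m : M // R (R m) = m ∧ σ m = m}) ≠ ⟨m₀, hZm₀, hσm₀⟩ :=
      fun h => hm₀0 (congrArg Subtype.val h).symm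
    have c02 : (⟨0, by simp⟩ : {m : M // R (R m) = m ∧ σ m = m}) ≠
        ⟨R m₀, by rw [hZm₀], hσR1 _ hm₀'⟩ :=
      fun h => hRm₀ (congrArg Subtype.val h).symm
    have c12 : (⟨m₀, hZm₀, hσm₀⟩ : {m : M // R (R m) = m ∧ σ m = m}) ≠
        ⟨R m₀, by rw [hZm₀], hσR1 _ hm₀'⟩ :=
      fun h => hne (congrArg Subtype.val h)
    rcases k0 with k0 | k0 <;> rcases k1 with k1 | k1 <;> rcases k2 with k2 | k2
    · exact c01 (k0.trans k1.symm)
    · exact c01 (k0.trans k1.symm)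
    · exact c02 (k0.trans k2.symm)
    · exact c12 (k1.trans k2.symm)
    · exact c12 (k1.trans k2.symm)
    · exact c02 (k0.trans k2.symm)
    · exact c01 (k0.trans k1.symm)
    · exact c01 (k0.trans k1.symm)

end Cfsg.Agent.Lib.Helper35.D8M
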